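import Groth.Agent.LoccohB.AdMain
import Groth.Agent.CurvesB.UnitCoh
import Groth.Prelude.Def_Dual3

/-!
# Coherence of the upper shriek of a bounded below complex with coherent cohomology

* `isNoetherian_of_isSepFT`: schemes separated and of finite type over a Noetherian scheme are Noetherian;
* `isCohD_shriekC`: `f^!` (through a compactification) preserves coherence of cohomology on bounded below complexes;
* `isCohD_shriekC_structure`: the case of the structure sheaf.
-/

set_option autoImplicit false
universe u
open CategoryTheory CategoryTheory.Limits AlgebraicGeometry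
attribute [local instance] HasDerivedCategory.standard

namespace Groth.Agent.Dual.H317.CohShriek

open Groth.Agent.PerfA Groth.Agent.LoccohB

/-- A scheme separated and of finite type over a Noetherian scheme is Noetherian. -/
theorem isNoetherian_of_isSepFT {X S : Scheme.{u}} [IsNoetherian S] (p : X ⟶ S) [Dual3.IsSepFT p] :
    IsNoetherian X := AdStruct.isNoetherian_of_finiteType p

variable {X Y : Scheme.{u}} {f : X ⟶ Y} (c : DEt.Compactification f) [DCoh.HasRpush c.fbar]
  {hc : DCoh.RpushPreservesQCoh c.fbar} {a : DCoh.DQCoh Y ⥤ DCoh.DQCoh c.Xbar}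

/-- `f^!` preserves coherence of cohomology on bounded below complexes. -/
theorem isCohD_shriekC [IsNoetherian Y] (adj : DCoh.RpushQ c.fbar hc ⊣ a)
    [PreservesFiniteLimits (Scheme.Modules.restrictFunctor c.j)] (K : DCoh.DQCoh Y) (hK : DCoh.IsCohD K.obj)
    (n : ℤ) (hn : K.obj.IsGE n) : DCoh.IsCohD ((Dual3.shriekC c a).obj K) :=
  QCohD.isCohD_restrictD c.j
    (AdMain.isCohD_of_univ c.fbar hK n hn (Ega1.ADualUniv.univ_of_adj (h := hc) adj K))

theorem isCohD_of_iso_structure {O : DCoh.D Y} (hO : Nonempty (O ≅ DCoh.inD Y (Coh.structureModule Y))) :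
    DCoh.IsCohD O :=
  QCohD.isCohD_of_iso hO.some.symm (QCohD.isCohD_inD _ (CurvesB.UnitCoh.isCoh_structureModule Y))

theorem isGE_of_iso_structure {O : DCoh.D Y} (hO : Nonempty (O ≅ DCoh.inD Y (Coh.structureModule Y))) :
    O.IsGE 0 := by
  have h : (DCoh.inD Y (Coh.structureModule Y)).IsGE 0 := inferInstance
  exact DerivedCategory.TStructure.t.isGE_of_iso hO.some.symm 0

/-- `f^! O_Y` has coherent cohomology. -/
theorem isCohD_shriekC_structure [IsNoetherian Y] (adj : DCoh.RpushQ c.fbar hc ⊣ a)
    [PreservesFiniteLimits (Scheme.Modules.restrictFunctor c.j)] (O : DCoh.DQCoh Y)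
    (hO : Nonempty (O.obj ≅ DCoh.inD Y (Coh.structureModule Y))) :
    DCoh.IsCohD ((Dual3.shriekC c a).obj O) :=
  isCohD_shriekC c adj O (isCohD_of_iso_structure hO) 0 (isGE_of_iso_structure hO)

end Groth.Agent.Dual.H317.CohShriek
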