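import Groth.Agent.PerfC.RelFlat
import Groth.Prelude.Def_DCoh3

/-!
# Relative flat amplitude and cohomology concentrated in the lowest degree

* `isFlatOver_HD`: if `K` has relative flat amplitude in `[a, b]` and `H^i(K) = 0` for `i > a`, then `H^a(K)` is flat
  over the base;
* `isZero_HD_of_lt`, `isZero_HD_of_gt`: vanishing outside the amplitude.
-/

set_option autoImplicit false
universe u
open CategoryTheory CategoryTheory.Limits AlgebraicGeometry
attribute [local instance] HasDerivedCategory.standard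

namespace Groth.Agent.Dual.H317.RelFlatOne

open Groth.Agent.PerfC

variable {X Y : Scheme.{u}} {f : X ⟶ Y}

/-- The cohomology of a complex in the derived category. -/
noncomputable def HDQ (E : CochainComplex X.Modules ℤ) (i : ℤ) : DCoh.HD (DCoh.toD X E) i ≅ E.homology i :=
  (DerivedCategory.homologyFunctorFactors X.Modules i).app E

theorem exists_rep {a b : ℤ} {K : DCoh.D X} (h : DCoh.HasRelFlatAmplitudeIn f a b K) :
    ∃ E : CochainComplex X.Modules ℤ, DCoh.VanishesOutside E a b ∧ (∀ i : ℤ, FlatMod.IsFlatOver f (E.X i)) ∧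
      ∀ i, Nonempty (DCoh.HD K i ≅ E.homology i) := by
  obtain ⟨E, h1, h2, ⟨e⟩⟩ := h
  exact ⟨E, h1, h2, fun i => ⟨(DerivedCategory.homologyFunctor X.Modules i).mapIso e.symm ≪≫ HDQ E i⟩⟩

theorem isZero_HD_of_outside {a b : ℤ} {K : DCoh.D X} (h : DCoh.HasRelFlatAmplitudeIn f a b K) (i : ℤ)
    (hi : i < a ∨ b < i) : IsZero (DCoh.HD K i) := by
  obtain ⟨E, h1, -, h3⟩ := exists_rep h
  obtain ⟨e⟩ := h3 i
  have hz : IsZero (E.homology i) := by
    rw [← HomologicalComplex.exactAt_iff_isZero_homology]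
    exact ShortComplex.exact_of_isZero_X₂ _ (h1 i hi)
  exact hz.of_iso e

/-- If `K` has relative flat amplitude in `[a, b]` and no cohomology above degree `a`, then `H^a(K)` is flat over
the base. -/
theorem isFlatOver_HD {a b : ℤ} {K : DCoh.D X} (h : DCoh.HasRelFlatAmplitudeIn f a b K)
    (hz : ∀ i : ℤ, a < i → IsZero (DCoh.HD K i)) : FlatMod.IsFlatOver f (DCoh.HD K a) := by
  obtain ⟨E, h1, h2, h3⟩ := exists_rep h
  have hex : ∀ i : ℤ, a < i → E.ExactAt i := fun i hi => by
    rw [HomologicalComplex.exactAt_iff_isZero_homology]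
    exact (hz i hi).of_iso (h3 i).some.symm
  have hc : FlatMod.IsFlatOver f (E.cycles a) :=
    (RelFlat.adapted (IsPullback.of_vert_isIso (fst := f) (snd := 𝟙 X) (f := 𝟙 Y) (g := f) ⟨by simp⟩).flip).cycles E b
      (fun i hi => h1 i (Or.inr hi)) h2 a hex a le_rfl
  have hd : E.d (a - 1) a = 0 := (h1 (a - 1) (Or.inl (by omega))).eq_of_src _ _
  exact RelFlat.isFlatOver_of_iso f (E.isoHomologyπ (a - 1) a (by simp) hd ≪≫ (h3 a).some.symm) hc

end Groth.Agent.Dual.H317.RelFlatOne
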