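import Groth.Agent.Dual.H317.QFDim
import Groth.Agent.Dual.H317.RelFlatOne
import Groth.Agent.Dual.H317.CohShriek

/-!
# The statement S3613 (flat quasi-finite case) from the relative amplitude statement (S3612, part (ii), `d = 0`)
-/

set_option autoImplicit false
universe u
open CategoryTheory CategoryTheory.Limits AlgebraicGeometry
attribute [local instance] HasDerivedCategory.standard

namespace Groth.Agent.Dual.H317.Of3612

/-- From relative flat amplitude in `[0, 0]`. -/
theorem main {X Y : Scheme.{u}} [IsNoetherian Y] {f : X ⟶ Y}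
    (c : DEt.Compactification f) [DCoh.HasRpush c.fbar]
    {hc : DCoh.RpushPreservesQCoh c.fbar} {a : DCoh.DQCoh Y ⥤ DCoh.DQCoh c.Xbar} (adj : DCoh.RpushQ c.fbar hc ⊣ a)
    [∀ (U V : Scheme.{u}) (j : U ⟶ V) [IsOpenImmersion j], PreservesFiniteLimits (Scheme.Modules.restrictFunctor j)]
    (O : DCoh.DQCoh Y) (hO : Nonempty (O.obj ≅ DCoh.inD Y (Coh.structureModule Y)))
    (h : DCoh.HasRelFlatAmplitudeIn f 0 0 ((Dual3.shriekC c a).obj O)) :
    (∀ i : ℤ, i ≠ 0 → IsZero (DCoh.HD ((Dual3.shriekC c a).obj O) i)) ∧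
      Coh.IsCoh (DCoh.HD ((Dual3.shriekC c a).obj O) 0) ∧
        FlatMod.IsFlatOver f (DCoh.HD ((Dual3.shriekC c a).obj O) 0) :=
  ⟨fun i hi => RelFlatOne.isZero_HD_of_outside h i (lt_or_gt_of_ne hi),
    CohShriek.isCohD_shriekC_structure c adj O hO 0,
    RelFlatOne.isFlatOver_HD h fun i hi => RelFlatOne.isZero_HD_of_outside h i (Or.inr hi)⟩

end Groth.Agent.Dual.H317.Of3612
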