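import Groth.Prelude.Def_Dual3
import Mathlib.AlgebraicGeometry.Morphisms.QuasiFinite
import Mathlib.Topology.KrullDimension

/-!
# Fibre dimensions of locally quasi-finite morphisms

`fibreDimLE_zero`, `localFibreDim_le_zero`: the fibres of a locally quasi-finite morphism have dimension at most `0`.
-/

set_option autoImplicit false
universe u
open CategoryTheory CategoryTheory.Limits AlgebraicGeometry

namespace Groth.Agent.Dual.H317.QFDim

variable {X Y : Scheme.{u}} (f : X ⟶ Y)

/-- The fibres of a locally quasi-finite morphism are discrete, hence of dimension at most `0`. -/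
theorem fibreDimLE_zero [LocallyQuasiFinite f] : Dual3.FibreDimLE f 0 := fun s => by
  have : DiscreteTopology (f.fiber s) := inferInstance
  exact_mod_cast topologicalKrullDim_zero_of_discreteTopology (f.fiber s)

/-- The local fibre dimension is at most the dimension of the fibre. -/
theorem localFibreDim_le_of_fibreDimLE {d : ℕ} (h : Dual3.FibreDimLE f d) (x : X) :
    Dual3.localFibreDim f x ≤ (d : WithBot ℕ∞) := by
  refine le_trans (iInf₂_le (⊤ : (f.fiber (f x)).Opens) trivial) ?_
  exact (topologicalKrullDim_subspace_le _ _).trans (h (f x))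

theorem localFibreDim_le_zero [LocallyQuasiFinite f] (x : X) :
    Dual3.localFibreDim f x ≤ ((0 : ℕ) : WithBot ℕ∞) :=
  localFibreDim_le_of_fibreDimLE f (fibreDimLE_zero f) x

end Groth.Agent.Dual.H317.QFDim
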